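import Mathlib
import Cfsg.Agent.Char2Forms.Standard

/-!
Elements of prime order and non-singular points: bridging lemmas, and minus-type fixed point free
elements of prime order in Omega.
-/

set_option autoImplicit false
set_option linter.unusedSectionVars false

namespace CfsgLib.Char2Forms

open Matrix Module

variable {F : Type*} [Field F] [Fintype F] {ι : Type} [Fintype ι] [DecidableEq ι]
  {Q : (ι → F) → F}

theorem pow_eq_one_of_scalar (hQ : Form2 Q) (hne : ∃ v, Q v = 1) {g : GL ι F}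
    (hg : g ∈ Cfsg.isometryGroup F Q) {z : F}
    (hz : (g : Matrix ι ι F) = z • (1 : Matrix ι ι F)) : g = 1 := by
  obtain ⟨v, hv⟩ := hne
  have h := mem_iso.1 hg v
  rw [hz, smul_mulVec, one_mulVec, hQ.smul, hv, mul_one] at h
  exact Units.ext (by rw [hz, sq_eq_one hQ.char2 h, one_smul, Units.val_one])

theorem fixed_of_stable (hQ : Form2 Q) {g : GL ι F} (hg : g ∈ Cfsg.isometryGroup F Q)
    {W : Submodule F (ι → F)} (hW : finrank F ↥W = 1 ∧ ∃ v ∈ W, Q v ≠ 0)
    (hs : W.map (Matrix.toLin' (g : Matrix ι ι F)) ≤ W) :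
    ∃ v, (g : Matrix ι ι F) *ᵥ v = v ∧ Q v ≠ 0 := by
  obtain ⟨h1, v, hv, hQv⟩ := hW
  have hv0 : v ≠ 0 := fun h => hQv (by rw [h, hQ.map_zero])
  have hspan : F ∙ v = W := Submodule.eq_of_le_of_finrank_le
    (by rw [Submodule.span_singleton_le_iff_mem]; exact hv)
    (by rw [h1, finrank_span_singleton hv0])
  have hm : (g : Matrix ι ι F) *ᵥ v ∈ F ∙ v := by
    rw [hspan]; exact hs ⟨v, hv, Matrix.toLin'_apply _ _⟩
  obtain ⟨l, hl⟩ := Submodule.mem_span_singleton.1 hm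
  have h := mem_iso.1 hg v
  rw [← hl, hQ.smul] at h
  have hl1 : l = 1 := sq_eq_one hQ.char2 (mul_right_cancel₀ hQv (h.trans (one_mul _).symm))
  exact ⟨v, by rw [← hl, hl1, one_smul], hQv⟩

theorem stable_of_fixed (hQ : Form2 Q) {g : GL ι F} {v : ι → F}
    (hv : (g : Matrix ι ι F) *ᵥ v = v) (hQv : Q v ≠ 0) :
    ∃ W : Submodule F (ι → F), (finrank F ↥W = 1 ∧ ∃ v ∈ W, Q v ≠ 0) ∧
      W.map (Matrix.toLin' (g : Matrix ι ι F)) ≤ W := by
  refine ⟨F ∙ v, ⟨finrank_span_singleton (fun h => hQv (by rw [h, hQ.map_zero])), v,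
    Submodule.mem_span_singleton_self v, hQv⟩, ?_⟩
  rw [Submodule.map_span, Set.image_singleton, Matrix.toLin'_apply, hv]

/-- The failing element: fixed point free, so it fixes no non-singular point. -/
theorem not_forall_of_fpf (hQ : Form2 Q) {r : ℕ} (hne : ∃ v, Q v = 1) {x : GL ι F}
    (hx : x ∈ Cfsg.Geo.omegaGL Q) (hxr : x ^ r = 1)
    (hfix : ∀ v, (x : Matrix ι ι F) *ᵥ v = v → v = 0)
    (H : ∀ x : GL ι F, x ∈ Cfsg.Geo.omegaGL Q →
      (∃ z : F, ((x ^ r : GL ι F) : Matrix ι ι F) = z • (1 : Matrix ι ι F)) →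
      (∀ z : F, (x : Matrix ι ι F) ≠ z • (1 : Matrix ι ι F)) →
      ∃ W : Submodule F (ι → F), (finrank F ↥W = 1 ∧ ∃ v ∈ W, Q v ≠ 0) ∧
        W.map (Matrix.toLin' (x : Matrix ι ι F)) ≤ W) : False := by
  have hns : ∀ z : F, (x : Matrix ι ι F) ≠ z • (1 : Matrix ι ι F) := by
    intro z hz
    obtain ⟨v, hv⟩ := hne
    have h1 := pow_eq_one_of_scalar hQ ⟨v, hv⟩ (omegaGL_le hx) hz
    have h0 := hfix v (by rw [h1, Units.val_one, one_mulVec])
    rw [h0, hQ.map_zero] at hv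
    exact zero_ne_one hv
  obtain ⟨W, hW, hs⟩ := H x hx ⟨1, by rw [hxr, Units.val_one, one_smul]⟩ hns
  obtain ⟨v, hv, hQv⟩ := fixed_of_stable hQ (omegaGL_le hx) hW hs
  exact hQv (by rw [hfix v hv, hQ.map_zero])

theorem card_one_plus (h2 : (2 : F) = 0) {m : ℕ} (hm : 0 < m) :
    Nat.card {v : Fin m ⊕ Fin m → F // Cfsg.quadFormPlus m F v = 1} =
      Fintype.card F ^ (m - 1) * (Fintype.card F ^ m - 1) := by
  have h := card_one_mul (form2_plus h2 (F := F) m)
  rw [card_plus_zero, Fintype.card_sum, Fintype.card_fin] at h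
  have hq : 2 ≤ Fintype.card F := Fintype.one_lt_card
  obtain ⟨k, rfl⟩ : ∃ k, m = k + 1 := ⟨m - 1, by omega⟩
  simp only [Nat.add_sub_cancel] at h ⊢
  have hp : 1 ≤ Fintype.card F ^ (k + 1) := Nat.one_le_pow _ _ (by omega)
  obtain ⟨a, ha⟩ := Nat.exists_eq_add_of_le hp
  obtain ⟨c, hc⟩ := Nat.exists_eq_add_of_le (show 1 ≤ Fintype.card F by omega)
  have hc0 : 0 < c := by omega
  rw [ha, Nat.add_sub_cancel_left] at h ⊢
  rw [show Fintype.card F - 1 = c by omega] at h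
  have ha' : Fintype.card F * Fintype.card F ^ k = 1 + a := by rw [← pow_succ']; exact ha
  have hbig : Fintype.card F ^ (k + 1 + (k + 1)) = (1 + a) * (1 + a) := by rw [pow_add, ha]
  rw [hbig] at h
  set N := Nat.card {v : Fin (k + 1) ⊕ Fin (k + 1) → F // Cfsg.quadFormPlus (k + 1) F v = 1} with hN
  set P := Fintype.card F ^ k
  have key : N * c = P * a * c := by
    rw [hc] at ha'
    zify at h ha' ⊢
    linear_combination h - (a : ℤ) * ha'
  exact Nat.eq_of_mul_eq_mul_right hc0 key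

theorem card_one_minus (h2 : (2 : F) = 0) (m : ℕ) (a b : F)
    (hab : ∀ x y : F, x ^ 2 + a * x * y + b * y ^ 2 = 0 → x = 0 ∧ y = 0) :
    Nat.card {v : (Fin m ⊕ Fin m) ⊕ Fin 2 → F // Cfsg.quadFormMinus m F a b v = 1} =
      Fintype.card F ^ m * (Fintype.card F ^ (m + 1) + 1) := by
  classical
  have h := card_one_mul (form2_minus h2 m a b hab)
  let R : F × F → F := fun w => w.1 ^ 2 + a * w.1 * w.2 + b * w.2 ^ 2
  have hR : Nat.card {w // R w = 0} = 1 := by
    haveI : Unique {w // R w = 0} :=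
      ⟨⟨⟨0, by simp [R]⟩⟩, fun w => Subtype.ext (Prod.ext (hab _ _ w.2).1 (hab _ _ w.2).2)⟩
    exact Nat.card_unique
  have e : Nat.card {v : (Fin m ⊕ Fin m) ⊕ Fin 2 → F // Cfsg.quadFormMinus m F a b v = 0} =
      Fintype.card F ^ m + (Fintype.card F ^ m - 1) *
        (Fintype.card F * Fintype.card F * Fintype.card F ^ (m - 1)) := by
    have h := card_dot_zero (F := F) (m := m) R
    rw [hR, mul_one, Fintype.card_prod] at h
    rw [← h]
    refine Nat.card_congr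
      { toFun := fun v => ⟨(fun i => v.1 (.inl (.inl i)), fun i => v.1 (.inl (.inr i)),
          (v.1 (.inr 0), v.1 (.inr 1))), v.2⟩
        invFun := fun p => ⟨Sum.elim (Sum.elim p.1.1 p.1.2.1) ![p.1.2.2.1, p.1.2.2.2], p.2⟩
        left_inv := fun v => Subtype.ext ?_
        right_inv := fun p => rfl }
    funext k
    rcases k with (i | i) | i
    · rfl
    · rfl
    · fin_cases i <;> rfl
  rw [e, Fintype.card_sum, Fintype.card_sum, Fintype.card_fin, Fintype.card_fin] at h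
  set N := Nat.card {v : (Fin m ⊕ Fin m) ⊕ Fin 2 → F // Cfsg.quadFormMinus m F a b v = 1}
  obtain ⟨c, hc⟩ := Nat.exists_eq_add_of_le (show 1 ≤ Fintype.card F from Fintype.card_pos)
  have hc0 : 0 < c := by have := Fintype.one_lt_card (α := F); omega
  refine Nat.eq_of_mul_eq_mul_right hc0 ?_
  rw [show Fintype.card F - 1 = c by omega] at h
  obtain ⟨t, ht⟩ := Nat.exists_eq_add_of_le
    (Nat.one_le_pow m (Fintype.card F) Fintype.card_pos)
  rw [show Fintype.card F ^ (m + m + 2) =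
      Fintype.card F ^ m * Fintype.card F ^ m * (Fintype.card F * Fintype.card F) by
    rw [pow_add, pow_add, pow_two]] at h
  rw [pow_succ]
  rcases m with _ | k
  · simp only [pow_zero, one_mul, mul_one, Nat.sub_self, zero_mul, add_zero] at h ⊢
    rw [hc] at h ⊢
    zify at h ⊢
    linear_combination h
  · rw [Nat.add_sub_cancel, ht, Nat.add_sub_cancel_left] at h
    rw [ht]
    have ht' : Fintype.card F * Fintype.card F ^ k = 1 + t := by rw [← pow_succ']; exact ht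
    rw [hc] at h ⊢ ht'
    zify at h ht' ⊢
    linear_combination h - (t : ℤ) * (1 + (c : ℤ)) * ht'

/-- Block diagonal matrices of two blocks. -/
def blockHom {ι₁ ι₂ : Type} [Fintype ι₁] [DecidableEq ι₁] [Fintype ι₂] [DecidableEq ι₂] :
    GL ι₁ F × GL ι₂ F →* GL (ι₁ ⊕ ι₂) F where
  toFun p :=
    ⟨fromBlocks (p.1 : Matrix ι₁ ι₁ F) 0 0 (p.2 : Matrix ι₂ ι₂ F),
     fromBlocks ((p.1⁻¹ : GL ι₁ F) : Matrix ι₁ ι₁ F) 0 0 ((p.2⁻¹ : GL ι₂ F) : Matrix ι₂ ι₂ F),
     by simp [fromBlocks_multiply], by simp [fromBlocks_multiply]⟩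
  map_one' := Units.ext (by simp)
  map_mul' p q := Units.ext (by simp [fromBlocks_multiply])

theorem blockHom_mulVec {ι₁ ι₂ : Type} [Fintype ι₁] [DecidableEq ι₁] [Fintype ι₂] [DecidableEq ι₂]
    (g : GL ι₁ F) (h : GL ι₂ F) (v : ι₁ ⊕ ι₂ → F) :
    (blockHom (g, h) : Matrix (ι₁ ⊕ ι₂) (ι₁ ⊕ ι₂) F) *ᵥ v =
      Sum.elim ((g : Matrix ι₁ ι₁ F) *ᵥ (v ∘ Sum.inl)) ((h : Matrix ι₂ ι₂ F) *ᵥ (v ∘ Sum.inr)) := by
  show fromBlocks _ 0 0 _ *ᵥ v = _
  simp [fromBlocks_mulVec]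

/-- Direct sum of a minus form and a plus form. -/
def sumIdx {a j m : ℕ} (h : a + j = m) :
    ((Fin a ⊕ Fin a) ⊕ Fin 2) ⊕ (Fin j ⊕ Fin j) ≃ (Fin m ⊕ Fin m) ⊕ Fin 2 :=
  ({ toFun := fun
      | .inl (.inl (.inl i)) => .inl (.inl (.inl i))
      | .inl (.inl (.inr i)) => .inl (.inr (.inl i))
      | .inl (.inr k) => .inr k
      | .inr (.inl i) => .inl (.inl (.inr i))
      | .inr (.inr i) => .inl (.inr (.inr i))
     invFun := fun
      | .inl (.inl (.inl i)) => .inl (.inl (.inl i))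
      | .inl (.inl (.inr i)) => .inr (.inl i)
      | .inl (.inr (.inl i)) => .inl (.inl (.inr i))
      | .inl (.inr (.inr i)) => .inr (.inr i)
      | .inr k => .inl (.inr k)
     left_inv := by rintro (((i | i) | i) | (i | i)) <;> rfl
     right_inv := by rintro (((i | i) | (i | i)) | i) <;> rfl } :
    ((Fin a ⊕ Fin a) ⊕ Fin 2) ⊕ (Fin j ⊕ Fin j) ≃ ((Fin a ⊕ Fin j) ⊕ (Fin a ⊕ Fin j)) ⊕ Fin 2).trans
    (Equiv.sumCongr (Equiv.sumCongr (finSumFinEquiv.trans (finCongr h))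
      (finSumFinEquiv.trans (finCongr h))) (Equiv.refl _))

theorem minus_sum {a j m : ℕ} (h : a + j = m) (s t : F) (v : (Fin m ⊕ Fin m) ⊕ Fin 2 → F) :
    Cfsg.quadFormMinus m F s t v = Cfsg.quadFormMinus a F s t ((v ∘ sumIdx h) ∘ Sum.inl) +
      Cfsg.quadFormPlus j F ((v ∘ sumIdx h) ∘ Sum.inr) := by
  subst h
  simp only [Cfsg.quadFormMinus, Cfsg.quadFormPlus]
  rw [Fin.sum_univ_add]
  simp [sumIdx]
  ring

theorem exists_omega_minus (h2 : (2 : F) = 0) {r : ℕ} [Fact r.Prime] (hodd : Odd r)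
    (hr : (Fintype.card F : ZMod r) ≠ 0) {m : ℕ} (s t : F)
    (hab : ∀ x y : F, x ^ 2 + s * x * y + t * y ^ 2 = 0 → x = 0 ∧ y = 0)
    (hm : (Fintype.card F : ZMod r) ^ (m + 1) = -1) :
    ∃ x : GL ((Fin m ⊕ Fin m) ⊕ Fin 2) F, x ∈ Cfsg.Geo.omegaGL (Cfsg.quadFormMinus m F s t) ∧
      x ^ r = 1 ∧
      ∀ v, (x : Matrix ((Fin m ⊕ Fin m) ⊕ Fin 2) ((Fin m ⊕ Fin m) ⊕ Fin 2) F) *ᵥ v = v → v = 0 := by
  classical
  have hr2 : (2 : ZMod r) ≠ 0 := by
    intro h
    have : r ∣ 2 := (ZMod.natCast_eq_zero_iff 2 r).1 (by exact_mod_cast h)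
    rcases (Nat.dvd_prime Nat.prime_two).1 this with h' | h'
    · exact (Fact.out : r.Prime).one_lt.ne' h'
    · subst h'; exact absurd hodd (by decide)
  have hne : (-1 : ZMod r) ≠ 1 := fun h => hr2 (by linear_combination -h)
  set i := orderOf (Fintype.card F : ZMod r) with hi
  have hi2 : i ∣ 2 * (m + 1) := orderOf_dvd_of_pow_eq_one (by rw [mul_comm, pow_mul, hm, neg_one_sq])
  have hnd : ¬ i ∣ m + 1 := fun h => hne (by rw [← hm]; exact orderOf_dvd_iff_pow_eq_one.1 h)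
  obtain ⟨k, hk⟩ := hi2
  have hkodd : Odd k := by
    rcases Nat.even_or_odd k with ⟨l, hl⟩ | h
    · exact absurd ⟨l, by subst hl; linarith⟩ hnd
    · exact h
  obtain ⟨e, he⟩ : 2 ∣ i := by
    rcases Nat.prime_two.dvd_mul.1 ⟨m + 1, hk.symm⟩ with h | h
    · exact h
    · exact absurd h (Nat.two_dvd_ne_zero.2 (Nat.odd_iff.1 hkodd))
  obtain ⟨l, hl⟩ := hkodd
  have hem : m + 1 = e * k := by rw [he] at hk; linarith
  have he0 : 0 < e := Nat.pos_of_ne_zero fun h => by subst h; simp at hem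
  have hqe : (Fintype.card F : ZMod r) ^ e = -1 := by
    have h1 : ((Fintype.card F : ZMod r) ^ e) ^ 2 = 1 := by
      rw [← pow_mul, mul_comm, ← he, hi]; exact pow_orderOf_eq_one _
    rcases sq_eq_one_iff.1 h1 with h | h
    · exfalso
      have h' := Nat.le_of_dvd he0 (orderOf_dvd_of_pow_eq_one h)
      omega
    · exact h
  obtain ⟨a, rfl⟩ : ∃ a, e = a + 1 := ⟨e - 1, by omega⟩
  have hj : a + (a + 1) * (2 * l) = m := by rw [hl] at hem; linarith
  -- the minus block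
  have hF := form2_minus h2 a s t hab
  have hne1 : ∃ u : (Fin a ⊕ Fin a) ⊕ Fin 2 → F, Cfsg.quadFormMinus a F s t u = 1 :=
    ⟨Sum.elim 0 ![1, 0], by simp [Cfsg.quadFormMinus]⟩
  obtain ⟨y, hy, hyo⟩ := exists_order_of_transitive hF (r := r)
    (fun u v hu hv => transitive hF (e := a + 1) (by simp; ring)
      (fun U hU => Nat.lt_succ_of_le (minus_finrank_le h2 a s t hab U hU)) hu hv) hne1
    (by
      rw [card_one_minus h2 a s t hab]
      refine Dvd.dvd.mul_left ((ZMod.natCast_eq_zero_iff _ r).1 ?_) _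
      push_cast
      rw [hqe]; ring)
  obtain ⟨g, hg, hgfix⟩ := exists_fpf_gl (F := F) hr (m := (a + 1) * (2 * l))
    (by rw [← hi, he]; exact ⟨l, by ring⟩)
  -- the product
  let σ := sumIdx (a := a) (j := (a + 1) * (2 * l)) hj
  let big : Cfsg.isometryGroup F (Cfsg.quadFormMinus a F s t) ×
      Cfsg.isometryGroup F (Cfsg.quadFormPlus ((a + 1) * (2 * l)) F) →*
      Cfsg.isometryGroup F (Cfsg.quadFormMinus m F s t) :=
    (((Cfsg.Geo.glReindex σ).toMonoidHom.comp blockHom).comp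
      ((Cfsg.isometryGroup F (Cfsg.quadFormMinus a F s t)).subtype.prodMap
        (Cfsg.isometryGroup F (Cfsg.quadFormPlus ((a + 1) * (2 * l)) F)).subtype)).codRestrict _
      fun p => mem_iso.2 fun v => by
        show Cfsg.quadFormMinus m F s t
          ((Cfsg.Geo.glReindex σ (blockHom ((p.1 : GL ((Fin a ⊕ Fin a) ⊕ Fin 2) F),
            (p.2 : GL (Fin ((a + 1) * (2 * l)) ⊕ Fin ((a + 1) * (2 * l))) F))) :
            GL ((Fin m ⊕ Fin m) ⊕ Fin 2) F).val *ᵥ v) = _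
        rw [reindex_mulVec_comp, minus_sum hj s t, minus_sum hj s t v]
        simp only [σ, Function.comp_assoc, Equiv.symm_comp_self, Function.comp_id, blockHom_mulVec,
          Sum.elim_comp_inl, Sum.elim_comp_inr]
        rw [mem_iso.1 p.1.2, mem_iso.1 p.2.2]
  have hl' : levi g ^ r = 1 := by rw [← map_pow, hg, map_one]
  have hyr : y ^ r = 1 := by rw [← hyo]; exact pow_orderOf_eq_one y
  have hbig : big (y, levi g) ∈ invGen (Cfsg.isometryGroup F (Cfsg.quadFormMinus m F s t)) := by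
    rw [show (y, levi g) = MonoidHom.inl _ _ y * MonoidHom.inr _ _ (levi g) by simp]
    exact map_mem_invGen big (mul_mem (map_mem_invGen _ hy) (map_mem_invGen _ (levi_mem_invGen h2 g)))
  have hpow : big (y, levi g) ^ r = 1 := by
    rw [← map_pow, Prod.pow_mk, hyr, hl']; exact map_one big
  refine ⟨_, coe_mem_omegaGL hbig hodd hpow, by simpa using congrArg Subtype.val hpow, ?_⟩
  intro v hv
  change ((Cfsg.Geo.glReindex σ (blockHom ((y : GL ((Fin a ⊕ Fin a) ⊕ Fin 2) F),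
    (levi g : GL (Fin ((a + 1) * (2 * l)) ⊕ Fin ((a + 1) * (2 * l))) F))) :
    GL ((Fin m ⊕ Fin m) ⊕ Fin 2) F).val) *ᵥ v = v at hv
  rw [reindex_mulVec_comp] at hv
  have hv' := congrArg (fun w => w ∘ σ) hv
  simp only [Function.comp_assoc, Equiv.symm_comp_self, Function.comp_id] at hv'
  have hy1 : (y : GL ((Fin a ⊕ Fin a) ⊕ Fin 2) F) ≠ 1 := by
    intro h
    have : y = 1 := Subtype.ext h
    rw [this, orderOf_one] at hyo
    exact (Fact.out : r.Prime).one_lt.ne hyo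
  have h1 : (v ∘ σ) ∘ Sum.inl = 0 := by
    refine fixedPointFree hr ?_ (g := (y : GL ((Fin a ⊕ Fin a) ⊕ Fin 2) F)) ?_ hy1 ?_
    · rw [← hi, he]; simp; omega
    · simpa using congrArg Subtype.val hyr
    · simpa [blockHom_mulVec, Function.comp_assoc] using congrArg (fun w => w ∘ Sum.inl) hv'
  have h3 : (v ∘ σ) ∘ Sum.inr = 0 :=
    levi_eq_zero_of_fix g hgfix _ (by
      simpa [blockHom_mulVec, Function.comp_assoc] using congrArg (fun w => w ∘ Sum.inr) hv')
  funext x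
  obtain ⟨k', rfl⟩ := σ.surjective x
  rcases k' with k' | k'
  · exact congrFun h1 k'
  · exact congrFun h3 k'

end CfsgLib.Char2Forms
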