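import Mathlib
import Cfsg.Agent.Char2Forms.Points
import Cfsg.Agent.Classical.CharTwoOrthoConj

/-!
The Arf invariant in the form of a Gauss sum, and the orbit of a quadratic form under the symplectic
group of its polar form.
-/

set_option autoImplicit false
set_option linter.unusedSectionVars false

namespace CfsgLib.Char2Forms

open Matrix Module CfsgLib.OrthoCharTwo

variable {F : Type*} [Field F] [Fintype F] [CharP F 2] {ι : Type} [Fintype ι] [DecidableEq ι]
  {Q : (ι → F) → F}

/-- The Gauss sum of a quadratic form. -/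
noncomputable def gsum (Q : (ι → F) → F) : ℤ := ∑ v, psi (Q v)

/-- `Q` shifted by the square of the linear form `B(·, a)`. -/
def shift (Q : (ι → F) → F) (a : ι → F) (v : ι → F) : F := Q v + QuadraticMap.polar Q v a ^ 2

theorem psi_cases (x : F) : psi x = 1 ∨ psi x = -1 := by
  unfold psi; split_ifs <;> simp

theorem psi_zero : psi (0 : F) = 1 := by
  unfold psi; exact if_pos (zero_mem _)

theorem psi_sq_mul (x y : F) : psi (x ^ 2 * y ^ 2) = psi (x * y) := by rw [← mul_pow, psi_sq]

theorem Form2.eq_q (hQ : Form2 Q) (u v : ι → F) :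
    Q (u + v) = Q u + Q v + hQ.polarLin u v := by rw [hQ.map_add]; rfl

theorem Form2.hnd (hQ : Form2 Q) (z : ι → F) (h : ∀ x, hQ.polarLin x z = 0) : z = 0 :=
  hQ.nondeg z fun v => by rw [QuadraticMap.polar_comm]; exact h v

theorem polar_shift (hQ : Form2 Q) (a u v : ι → F) :
    QuadraticMap.polar (shift Q a) u v = QuadraticMap.polar Q u v := by
  show shift Q a (u + v) - shift Q a u - shift Q a v = _
  simp only [shift, hQ.bil.add_left, hQ.map_add]
  linear_combination (QuadraticMap.polar Q u a * QuadraticMap.polar Q v a) * hQ.char2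

theorem form2_shift (hQ : Form2 Q) (a : ι → F) : Form2 (shift Q a) where
  char2 := hQ.char2
  smul c v := by simp only [shift, hQ.smul, hQ.bil.smul_left]; ring
  bil := by
    have e : QuadraticMap.polar (shift Q a) = QuadraticMap.polar Q :=
      funext fun u => funext fun v => polar_shift hQ a u v
    rw [e]; exact hQ.bil
  nondeg u hu := hQ.nondeg u fun v => by rw [← polar_shift hQ a]; exact hu v

theorem gsum_shift (hQ : Form2 Q) (a : ι → F) : gsum (shift Q a) = psi (Q a) * gsum Q := by
  unfold gsum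
  rw [Finset.mul_sum]
  refine Fintype.sum_equiv (Equiv.addRight a) _ _ fun v => ?_
  show psi (shift Q a v) = psi (Q a) * psi (Q (v + a))
  rw [shift, hQ.map_add, psi_add, psi_add, psi_add, psi_sq]
  linear_combination -(psi (Q v) * psi (QuadraticMap.polar Q v a)) * psi_mul_self (Q a)

theorem gsum_sq (hQ : Form2 Q) : gsum Q * gsum Q = (Fintype.card F : ℤ) ^ Fintype.card ι := by
  rw [gsum, charSum_sq Q hQ.polarLin hQ.eq_q hQ.hnd, Fintype.card_fun]
  push_cast; rfl

theorem gsum_cases (hQ : Form2 Q) {d : ℕ} (hd : Fintype.card ι = 2 * d) :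
    gsum Q = (Fintype.card F : ℤ) ^ d ∨ gsum Q = -(Fintype.card F : ℤ) ^ d := by
  refine mul_self_eq_mul_self_iff.1 ?_
  rw [gsum_sq hQ, hd, ← pow_add, two_mul]

theorem gsum_ne_zero (hQ : Form2 Q) : gsum Q ≠ 0 := by
  intro h
  have := gsum_sq hQ
  rw [h, mul_zero] at this
  exact pow_ne_zero _ (by exact_mod_cast Fintype.card_ne_zero) this.symm

/-- A totally singular subspace of half dimension makes the Gauss sum positive. -/
theorem gsum_of_plus (hQ : Form2 Q) {d : ℕ} (hd : Fintype.card ι = 2 * d)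
    {W : Submodule F (ι → F)} (hW : Cfsg.Geo.IsTotallySingularQuad Q W) (hWd : finrank F W = d) :
    gsum Q = (Fintype.card F : ℤ) ^ d := by
  classical
  have hWi : ∀ a ∈ W, ∀ b ∈ W, QuadraticMap.polar Q a b = 0 := fun a ha b hb => by
    rw [QuadraticMap.polar, hW _ (W.add_mem ha hb), hW _ ha, hW _ hb]; ring
  -- vectors orthogonal to `W` lie in `W`
  have hperp : ∀ v, (∀ w ∈ W, QuadraticMap.polar Q v w = 0) → v ∈ W := by
    intro v hv
    by_contra hvW
    have hU : ∀ a ∈ W ⊔ (F ∙ v), ∀ b ∈ W ⊔ (F ∙ v), QuadraticMap.polar Q a b = 0 := by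
      intro a ha b hb
      obtain ⟨a₁, ha₁, a₂, ha₂, rfl⟩ := Submodule.mem_sup.1 ha
      obtain ⟨b₁, hb₁, b₂, hb₂, rfl⟩ := Submodule.mem_sup.1 hb
      obtain ⟨s, rfl⟩ := Submodule.mem_span_singleton.1 ha₂
      obtain ⟨t, rfl⟩ := Submodule.mem_span_singleton.1 hb₂
      simp only [hQ.bil.add_left, hQ.bil.add_right, hQ.bil.smul_left, hQ.bil.smul_right,
        hQ.polar_self, hWi _ ha₁ _ hb₁, hv _ hb₁, QuadraticMap.polar_comm Q a₁ v, hv _ ha₁]
      ring
    have h1 := card_two_mul_le hQ _ hU
    have hlt : W < W ⊔ (F ∙ v) := by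
      refine lt_of_le_of_ne le_sup_left fun h => hvW ?_
      rw [h]; exact Submodule.mem_sup_right (Submodule.mem_span_singleton_self v)
    have := Submodule.finrank_lt_finrank_of_lt hlt
    omega
  have hsum : ∀ v, ∑ w : W, psi (QuadraticMap.polar Q v w) =
      if v ∈ W then (Fintype.card W : ℤ) else 0 := by
    intro v
    split_ifs with hv
    · simp [hWi v hv _ (SetLike.coe_mem _), psi_zero]
    · obtain ⟨w, hw, hne⟩ : ∃ w ∈ W, QuadraticMap.polar Q v w ≠ 0 := by
        by_contra h; push_neg at h; exact hv (hperp v h)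
      obtain ⟨c, hc⟩ := exists_psi_ne_one (F := F)
      let s : W := ⟨(c / QuadraticMap.polar Q v w) • w, W.smul_mem _ hw⟩
      have h := Fintype.sum_equiv (Equiv.addRight s)
        (fun u : W => psi (QuadraticMap.polar Q v ((u + s : W) : ι → F)))
        (fun u : W => psi (QuadraticMap.polar Q v (u : ι → F))) (fun u => rfl)
      have h' : ∀ u : W, psi (QuadraticMap.polar Q v ((u + s : W) : ι → F)) =
          - psi (QuadraticMap.polar Q v (u : ι → F)) := by
        intro u
        rw [Submodule.coe_add, hQ.bil.add_right, psi_add]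
        rw [show QuadraticMap.polar Q v (s : ι → F) = c by
          simp only [s, hQ.bil.smul_right]; field_simp, hc, mul_neg, mul_one]
      simp only [h', Finset.sum_neg_distrib] at h
      omega
  have key : (Fintype.card W : ℤ) * gsum Q = Fintype.card W * Fintype.card W := by
    have e1 : ∀ w : W, gsum Q = ∑ v, psi (Q v) * psi (QuadraticMap.polar Q v w) := by
      intro w
      unfold gsum
      refine (Fintype.sum_equiv (Equiv.addRight (w : ι → F)) _ _ fun v => ?_).symm
      show _ = psi (Q (v + (w : ι → F)))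
      rw [hQ.map_add, psi_add, psi_add, hW _ w.2, psi_zero, mul_one]
    calc (Fintype.card W : ℤ) * gsum Q = ∑ _w : W, gsum Q := by simp
      _ = ∑ w : W, ∑ v, psi (Q v) * psi (QuadraticMap.polar Q v w) := Finset.sum_congr rfl fun w _ => e1 w
      _ = ∑ v, psi (Q v) * ∑ w : W, psi (QuadraticMap.polar Q v w) := by
        rw [Finset.sum_comm]; simp [Finset.mul_sum]
      _ = ∑ v, (if v ∈ W then (Fintype.card W : ℤ) else 0) := by
        refine Finset.sum_congr rfl fun v _ => ?_
        rw [hsum]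
        split_ifs with hv
        · rw [hW _ hv, psi_zero, one_mul]
        · rw [mul_zero]
      _ = _ := by simp [Finset.sum_ite, Fintype.card_subtype]
  have hcard : (Fintype.card W : ℤ) = (Fintype.card F : ℤ) ^ d := by
    rw [← hWd, ← Nat.card_eq_fintype_card, Module.natCard_eq_pow_finrank (K := F),
      Nat.card_eq_fintype_card]
    push_cast; rfl
  rw [hcard] at key
  exact mul_left_cancel₀ (pow_ne_zero _ (by exact_mod_cast Fintype.card_ne_zero)) key

/-- The group of isometries of the polar form. -/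
def polarGroup (Q : (ι → F) → F) : Subgroup (GL ι F) :=
  Cfsg.preserving (Units.coeHom (Matrix ι ι F)) (QuadraticMap.polar Q)

theorem mem_polarGroup {g : GL ι F} : g ∈ polarGroup Q ↔ ∀ u v,
    QuadraticMap.polar Q ((g : Matrix ι ι F) *ᵥ u) ((g : Matrix ι ι F) *ᵥ v) =
      QuadraticMap.polar Q u v := Iff.rfl

/-- The symplectic transvection carrying `Q` to `shift Q a`, when `a` has trivial invariant. -/
theorem exists_to_shift (hQ : Form2 Q) {a : ι → F} (ha : psi (Q a) = 1) :
    ∃ g ∈ polarGroup Q, g * g = 1 ∧ ∀ v, Q ((g : Matrix ι ι F) *ᵥ v) = shift Q a v := by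
  have hmem : Q a ∈ (artinSchreierHom F).range := by
    unfold psi at ha
    split_ifs at ha with h
    exact h
  obtain ⟨μ, hμ⟩ := hmem
  have hμ' : μ ^ 2 + μ = Q a := hμ
  obtain ⟨c, hc⟩ : ∃ c : F, c ^ 2 * Q a + c = 1 := by
    by_cases h0 : μ = 0
    · subst h0
      exact ⟨1, by rw [← hμ']; ring⟩
    · exact ⟨μ⁻¹, by rw [← hμ']; field_simp; linear_combination hQ.char2⟩
  let M : Matrix ι ι F := LinearMap.toMatrix' (LinearMap.id + c • (hQ.polarLin a).smulRight a)
  have hM : ∀ v, M *ᵥ v = v + (c * QuadraticMap.polar Q a v) • a := fun v => by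
    simp only [M, LinearMap.toMatrix'_mulVec]
    simp [smul_smul]
  have hMM : M * M = 1 := by
    refine Matrix.ext_of_mulVec_single fun i => ?_
    generalize (Pi.single i (1 : F) : ι → F) = v
    rw [← mulVec_mulVec, hM, hM, one_mulVec, hQ.bil.add_right, hQ.bil.smul_right, hQ.polar_self,
      mul_zero, add_zero, add_assoc, ← add_smul, hQ.add_self, zero_smul, add_zero]
  refine ⟨⟨M, M, hMM, hMM⟩, mem_polarGroup.2 fun u v => ?_, Units.ext hMM, fun v => ?_⟩
  · show QuadraticMap.polar Q (M *ᵥ u) (M *ᵥ v) = _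
    rw [hM, hM]
    simp only [hQ.bil.add_left, hQ.bil.add_right, hQ.bil.smul_left, hQ.bil.smul_right,
      hQ.polar_self, QuadraticMap.polar_comm Q u a]
    linear_combination (c * QuadraticMap.polar Q a u * QuadraticMap.polar Q a v) * hQ.char2
  · show Q (M *ᵥ v) = _
    rw [hM, shift, hQ.map_add, hQ.smul, hQ.bil.smul_right, QuadraticMap.polar_comm Q v a]
    linear_combination (QuadraticMap.polar Q a v) ^ 2 * hc

theorem exists_shift_of_mem (hQ : Form2 Q) {g : GL ι F} (hg : g ∈ polarGroup Q) :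
    ∃ a, psi (Q a) = 1 ∧ ∀ v, Q ((g : Matrix ι ι F) *ᵥ v) = shift Q a v := by
  obtain ⟨a, ha⟩ := exists_vec_of_polar_isometry Q hQ.polarLin hQ.smul hQ.eq_q hQ.hnd
    (Matrix.mulVecLin (g : Matrix ι ι F)) (fun u v => hg u v)
  refine ⟨a, ?_, ha⟩
  have h : gsum (shift Q a) = gsum Q := by
    unfold gsum
    refine Fintype.sum_equiv (glPerm g) _ _ fun v => ?_
    rw [← show Q ((g : Matrix ι ι F) *ᵥ v) = shift Q a v from ha v]
    rfl
  rw [gsum_shift hQ] at h
  exact mul_right_cancel₀ (gsum_ne_zero hQ) (h.trans (one_mul _).symm)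

theorem shift_injective (hQ : Form2 Q) {a b : ι → F} (h : ∀ v, shift Q a v = shift Q b v) :
    a = b := by
  have : a + b = 0 := hQ.hnd _ fun v => by
    show QuadraticMap.polar Q v (a + b) = 0
    have hv := h v
    simp only [shift, add_right_inj] at hv
    have : (QuadraticMap.polar Q v (a + b)) ^ 2 = 0 := by
      rw [hQ.bil.add_right]
      linear_combination hv + (QuadraticMap.polar Q v b ^ 2 +
        QuadraticMap.polar Q v a * QuadraticMap.polar Q v b) * hQ.char2
    exact pow_eq_zero_iff two_ne_zero |>.1 this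
  funext i
  have hi := congrFun this i
  simp only [Pi.add_apply, Pi.zero_apply] at hi
  linear_combination hi - b i * hQ.char2

/-- An isometry of the polar form is conjugate into the isometry group of `Q` exactly when it fixes
one of the forms `shift Q a` with `psi (Q a) = 1`. -/
theorem conj_into_iff (hQ : Form2 Q) {x : GL ι F} :
    (∃ g ∈ polarGroup Q, g⁻¹ * x * g ∈ Cfsg.isometryGroup F Q) ↔
      ∃ a, psi (Q a) = 1 ∧ ∀ v, shift Q a ((x : Matrix ι ι F) *ᵥ v) = shift Q a v := by
  constructor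
  · rintro ⟨g, hg, hgx⟩
    obtain ⟨a, ha, hav⟩ := exists_shift_of_mem hQ (inv_mem hg)
    refine ⟨a, ha, fun v => ?_⟩
    have := mem_iso.1 hgx (((g⁻¹ : GL ι F) : Matrix ι ι F) *ᵥ v)
    rw [Units.val_mul, Units.val_mul, ← mulVec_mulVec, ← mulVec_mulVec,
      mulVec_mulVec (M := (g : Matrix ι ι F)), ← Units.val_mul g, mul_inv_cancel, Units.val_one,
      one_mulVec, hav, hav] at this
    exact this
  · rintro ⟨a, ha, hax⟩
    obtain ⟨g, hg, hgg, hgv⟩ := exists_to_shift hQ ha
    refine ⟨g, hg, mem_iso.2 fun v => ?_⟩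
    have hinv : g⁻¹ = g := inv_eq_of_mul_eq_one_right hgg
    rw [hinv, Units.val_mul, Units.val_mul, ← mulVec_mulVec, ← mulVec_mulVec, hgv, hax, ← hgv,
      mulVec_mulVec, ← Units.val_mul, hgg, Units.val_one, one_mulVec]

/-- The index of the isometry group of `Q` is the number of forms in its orbit. -/
theorem relIndex_eq (hQ : Form2 Q) {H : Subgroup (GL ι F)}
    (hH : ∀ g ∈ polarGroup Q, (g ∈ H ↔ g ∈ Cfsg.isometryGroup F Q)) :
    H.relIndex (polarGroup Q) = Nat.card {a : ι → F // psi (Q a) = 1} := by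
  classical
  let T := polarGroup Q
  have ex : ∀ g : T, ∃ a : {a : ι → F // psi (Q a) = 1},
      ∀ v, Q ((((g : GL ι F)⁻¹ : GL ι F) : Matrix ι ι F) *ᵥ v) = shift Q a v := fun g => by
    obtain ⟨a, ha, hav⟩ := exists_shift_of_mem hQ (inv_mem g.2)
    exact ⟨⟨a, ha⟩, hav⟩
  choose φ hφ using ex
  have hcoset : ∀ g k : T, φ g = φ k ↔ g⁻¹ * k ∈ H.subgroupOf T := by
    intro g k
    rw [Subgroup.mem_subgroupOf, hH _ (g⁻¹ * k).2, mem_iso]
    constructor
    · intro e v
      rw [Subgroup.coe_mul, Subgroup.coe_inv, Units.val_mul, ← mulVec_mulVec, hφ g, e, ← hφ k,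
        mulVec_mulVec, ← Units.val_mul, inv_mul_cancel, Units.val_one, one_mulVec]
    · intro e
      refine Subtype.ext (shift_injective hQ fun v => ?_)
      rw [← hφ g, ← hφ k, ← e ((((k : GL ι F)⁻¹ : GL ι F) : Matrix ι ι F) *ᵥ v),
        Subgroup.coe_mul, Subgroup.coe_inv, Units.val_mul, mulVec_mulVec, mul_assoc,
        ← Units.val_mul (k : GL ι F), mul_inv_cancel, Units.val_one, mul_one]
  rw [Subgroup.relIndex, Subgroup.index]
  refine Nat.card_eq_of_bijective (Quotient.lift φ fun g k h => ?_) ⟨?_, ?_⟩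
  · exact (hcoset g k).2 (QuotientGroup.leftRel_apply.1 h)
  · rintro ⟨g⟩ ⟨k⟩ h
    exact Quotient.sound (QuotientGroup.leftRel_apply.2 ((hcoset g k).1 h))
  · rintro ⟨a, ha⟩
    obtain ⟨g, hg, hgg, hgv⟩ := exists_to_shift hQ ha
    refine ⟨Quotient.mk'' ⟨g, hg⟩, ?_⟩
    show φ ⟨g, hg⟩ = _
    refine Subtype.ext (shift_injective hQ fun v => ?_)
    rw [← hφ, show ((⟨g, hg⟩ : T) : GL ι F)⁻¹ = g from inv_eq_of_mul_eq_one_right hgg, hgv]

theorem two_mul_card_good (Q : (ι → F) → F) :
    2 * (Nat.card {a : ι → F // psi (Q a) = 1} : ℤ) =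
      (Fintype.card F : ℤ) ^ Fintype.card ι + gsum Q := by
  classical
  have h : ∀ v, psi (Q v) = 2 * (if psi (Q v) = 1 then 1 else 0 : ℤ) - 1 := by
    intro v; rcases psi_cases (Q v) with h | h <;> simp [h]
  rw [gsum, Finset.sum_congr rfl fun v _ => h v, Finset.sum_sub_distrib, ← Finset.mul_sum,
    Finset.sum_boole, Finset.sum_const, Finset.card_univ, Fintype.card_fun,
    Nat.card_eq_fintype_card, Fintype.card_subtype]
  push_cast
  ring_nf

/-- Every involution of the polar group fixes some shifted form of trivial invariant, unless the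
dimension is divisible by 4 and the form is not of plus type. -/
theorem involution_fixes (hQ : Form2 Q) {d : ℕ} (hd : Fintype.card ι = 2 * d)
    (hcond : gsum Q = (Fintype.card F : ℤ) ^ d ∨ Odd d) {x : GL ι F} (hx : x ∈ polarGroup Q)
    (hx2 : x * x = 1) :
    ∃ a, psi (Q a) = 1 ∧ ∀ v, shift Q a ((x : Matrix ι ι F) *ᵥ v) = shift Q a v := by
  classical
  set X : Matrix ι ι F := (x : Matrix ι ι F) with hX
  have hXX : X * X = 1 := congrArg Units.val hx2
  have hadj : ∀ u v, QuadraticMap.polar Q (X *ᵥ u) v = QuadraticMap.polar Q u (X *ᵥ v) := by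
    intro u v
    rw [← mem_polarGroup.1 hx u (X *ᵥ v), mulVec_mulVec, hXX, one_mulVec]
  set N := Matrix.mulVecLin (X - 1) with hN
  have hNv : ∀ v, N v = X *ᵥ v + v := fun v => by
    funext i
    simp only [hN, Matrix.mulVecLin_apply, sub_mulVec, one_mulVec, Pi.sub_apply, Pi.add_apply]
    linear_combination -(v i) * hQ.char2
  set K := fixSpace x with hK
  -- the range of `N` is the orthogonal of the fixed space
  have hrange : ∀ c, (∀ v ∈ K, QuadraticMap.polar Q v c = 0) → ∃ a, N a = c := by
    intro c hc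
    let φ : (ι → F) →ₗ[F] Dual F K :=
      { toFun := fun c => (hQ.polarLin.flip c).comp K.subtype
        map_add' := fun a b => by ext; simp
        map_smul' := fun a b => by ext; simp }
    have hsur : Function.Surjective φ := by
      intro f
      obtain ⟨g, hg⟩ := LinearMap.exists_extend f
      have hflip : Function.Surjective hQ.polarLin.flip := by
        refine (LinearMap.injective_iff_surjective_of_finrank_eq_finrank
          Subspace.dual_finrank_eq.symm).1 ?_
        rw [injective_iff_map_eq_zero]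
        intro z hz
        exact hQ.hnd z fun w => LinearMap.congr_fun hz w
      obtain ⟨z, hz⟩ := hflip g
      refine ⟨z, ?_⟩
      show (hQ.polarLin.flip z).comp K.subtype = f
      rw [hz, hg]
    have hle : LinearMap.range N ≤ LinearMap.ker φ := by
      rintro _ ⟨w, rfl⟩
      rw [LinearMap.mem_ker]
      refine LinearMap.ext fun v => ?_
      show QuadraticMap.polar Q (v : ι → F) (N w) = 0
      rw [hNv, hQ.bil.add_right, ← hadj, mem_fixSpace.1 v.2, hQ.add_self]
    have h1 := LinearMap.finrank_range_add_finrank_ker φ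
    rw [LinearMap.range_eq_top.2 hsur, finrank_top, Subspace.dual_finrank_eq] at h1
    have h2 := LinearMap.finrank_range_add_finrank_ker N
    have h3 : finrank F (LinearMap.ker N) = finrank F K := rfl
    have heq := Submodule.eq_of_le_of_finrank_le hle (by omega)
    have hmem : c ∈ LinearMap.ker φ := by
      rw [LinearMap.mem_ker]; exact LinearMap.ext fun v => hc v v.2
    rw [← heq] at hmem
    exact hmem
  obtain ⟨c, hc⟩ := exists_vec_of_polar_isometry Q hQ.polarLin hQ.smul hQ.eq_q hQ.hnd
    (Matrix.mulVecLin X) (fun u v => hx u v)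
  have hc' : ∀ v, Q (X *ᵥ v) = Q v + QuadraticMap.polar Q v c ^ 2 := hc
  obtain ⟨a₀, ha₀⟩ := hrange c (fun v hv => by
    have h := hc' v
    rw [show X *ᵥ v = v from mem_fixSpace.1 hv] at h
    exact pow_eq_zero_iff two_ne_zero |>.1 (by linear_combination -h))
  have hfix : ∀ a, N a = c → ∀ v, shift Q a (X *ᵥ v) = shift Q a v := by
    intro a ha v
    simp only [shift]
    rw [hc', hadj, ← ha, hNv, hQ.bil.add_right]
    linear_combination (QuadraticMap.polar Q v (X *ᵥ a) ^ 2 +
      QuadraticMap.polar Q v (X *ᵥ a) * QuadraticMap.polar Q v a) * hQ.char2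
  by_contra hall
  push_neg at hall
  have hbad : ∀ k ∈ K, psi (Q (a₀ + k)) = psi (Q a₀) := by
    intro k hk
    have hn : ∀ a, N a = c → psi (Q a) = -1 := by
      intro a ha
      rcases psi_cases (Q a) with h | h
      · obtain ⟨v, hv⟩ := hall a h; exact absurd (hfix a ha v) hv
      · exact h
    rw [hn a₀ ha₀, hn (a₀ + k) (by rw [map_add, ha₀, LinearMap.mem_ker.1 hk, add_zero])]
  have heta : ∀ k ∈ K, psi (Q k) * psi (QuadraticMap.polar Q a₀ k) = 1 := by
    intro k hk
    have h := hbad k hk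
    rw [hQ.map_add, psi_add, psi_add] at h
    have h0 := psi_mul_self (Q a₀)
    linear_combination psi (Q a₀) * h + (1 - psi (Q k) * psi (QuadraticMap.polar Q a₀ k)) * h0
  obtain ⟨c₁, hc₁⟩ := exists_psi_ne_one (F := F)
  have hiso : ∀ a ∈ K, ∀ b ∈ K, QuadraticMap.polar Q a b = 0 := by
    intro a ha b hb
    by_contra hne
    have hsb : ((c₁ / QuadraticMap.polar Q a b) • b) ∈ K := K.smul_mem _ hb
    set b' := (c₁ / QuadraticMap.polar Q a b) • b with hb'
    have hab : QuadraticMap.polar Q a b' = c₁ := by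
      rw [hb', hQ.bil.smul_right, div_mul_cancel₀ _ hne]
    have h := heta (a + b') (K.add_mem ha hsb)
    rw [hQ.map_add, hQ.bil.add_right, hab, psi_add, psi_add, psi_add, hc₁] at h
    have h1 := heta a ha
    have h2 := heta b' hsb
    have : (psi (Q a) * psi (QuadraticMap.polar Q a₀ a)) *
        (psi (Q b') * psi (QuadraticMap.polar Q a₀ b')) = -1 := by linear_combination -h
    rw [h1, h2] at this
    norm_num at this
  have hle := card_two_mul_le hQ K hiso
  have hge := half_le_fixSpace hQ.char2 hx2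
  rw [← hK] at hge
  have hKd : finrank F K = d := by omega
  have hTS : Cfsg.Geo.IsTotallySingularQuad (shift Q a₀) K := by
    intro k hk
    obtain ⟨s, hs⟩ := exists_sq_eq hQ.char2 (Q k)
    have h1 : ∀ l : F, psi (l * (s + QuadraticMap.polar Q a₀ k)) = 1 := by
      intro l
      have h := heta (l • k) (K.smul_mem l hk)
      rw [hQ.smul, hQ.bil.smul_right, ← hs, psi_sq_mul] at h
      rw [mul_add, psi_add, h]
    have h2 : s + QuadraticMap.polar Q a₀ k = 0 := by
      by_contra hne
      have := h1 (c₁ / (s + QuadraticMap.polar Q a₀ k))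
      rw [div_mul_cancel₀ _ hne, hc₁] at this
      norm_num at this
    show Q k + QuadraticMap.polar Q k a₀ ^ 2 = 0
    rw [QuadraticMap.polar_comm Q k a₀, ← hs]
    linear_combination (s + QuadraticMap.polar Q a₀ k) * h2 -
      s * QuadraticMap.polar Q a₀ k * hQ.char2
  rcases hcond with hplus | hodd
  · have h := gsum_of_plus (form2_shift hQ a₀) hd hTS hKd
    rw [gsum_shift hQ, hplus] at h
    obtain ⟨v, hv⟩ := hall a₀ (mul_right_cancel₀
      (pow_ne_zero _ (by exact_mod_cast Fintype.card_ne_zero)) (h.trans (one_mul _).symm))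
    exact hv (hfix a₀ ha₀ v)
  · obtain ⟨v, hv, hv'⟩ := exists_fixed_nonsingular (form2_shift hQ a₀) hd hodd
      (g := x) (mem_iso.2 (hfix a₀ ha₀)) hx2
    exact hv' (hTS v (mem_fixSpace.2 hv))

end CfsgLib.Char2Forms
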